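import Mathlib
import Cfsg.Agent.Lib.Helper48.S4415.RedDefs
import Cfsg.Agent.Lib.Helper6.TransvGenM

/-!
# S4415, package [RED], sub-package [R-TRANS]

Transport of the conclusion `Concl` from a subgroup of `↥H` to its image in `S`.
-/

set_option autoImplicit false

namespace Cfsg.Agent.Lib.Helper45.S4415

open Cfsg.Agent.Lib.Helper78.S4415

universe u

/-- The image in `S` of an elementary abelian subgroup of `↥H` is elementary abelian. -/
theorem trans_elab {S : Type u} [Group S] (H : Subgroup S) (p : ℕ) (A : Subgroup ↥H)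
    (h : Cfsg.IsElementaryAbelian p A) : Cfsg.IsElementaryAbelian p (A.map H.subtype) := by
  obtain ⟨h1, h2⟩ := h
  refine ⟨⟨⟨?_⟩⟩, ?_⟩
  · rintro ⟨a, x, hx, rfl⟩ ⟨b, y, hy, rfl⟩
    apply Subtype.ext
    have hxy : (⟨x, hx⟩ : ↥A) * ⟨y, hy⟩ = ⟨y, hy⟩ * ⟨x, hx⟩ := h1.is_comm.comm _ _
    have hxy' : x * y = y * x := congrArg Subtype.val hxy
    show H.subtype x * H.subtype y = H.subtype y * H.subtype x
    rw [← map_mul, ← map_mul, hxy']
  · rintro a ⟨x, hx, rfl⟩
    rw [← map_pow, h2 x hx, map_one]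

/-- The image in `S` of a subgroup of `↥H` has the same cardinality. -/
theorem trans_card {S : Type u} [Group S] (H : Subgroup S) (A : Subgroup ↥H) :
    Nat.card ↥(A.map H.subtype) = Nat.card ↥A :=
  (Nat.card_congr (A.equivMapOfInjective H.subtype H.subtype_injective).toEquiv).symm

/-- **[R-TRANS]** -/
theorem pkgTrans : Cfsg.Agent.Lib.Helper48.S4415.PkgTrans.{u} := by
  intro S _ H X hX
  rcases hX with ⟨h1, h2⟩ | ⟨h1, h2, A, hA, hA1, hA2⟩
  · left
    exact ⟨trans_elab H 2 X h1, by rw [trans_card, h2]⟩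
  · right
    have hc : Nat.card ↥(X.map H.subtype) = 32 := by rw [trans_card, h2]
    have hfin : Finite ↥(X.map H.subtype) := Nat.finite_of_card_ne_zero (by rw [hc]; norm_num)
    have : Fact (Nat.Prime 2) := ⟨Nat.prime_two⟩
    refine ⟨?_, hc, A.map H.subtype, Subgroup.map_mono hA, trans_elab H 2 A hA1, ?_⟩
    · exact Cfsg.Agent.Lib.Helper6.TG.isExtraspecial_congr
        (X.equivMapOfInjective H.subtype H.subtype_injective) h1
    · rw [trans_card, hA2]

end Cfsg.Agent.Lib.Helper45.S4415
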