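import Mathlib
import Cfsg.Agent.Lib.Helper65.S4415.ExtDefs

/-!
# S4415, package [EXT], sub-package [X-Q8]

Pure group theory: in a group `N` of extraspecial type (centre `{1, z}`, squares and commutators
in `{1, z}`) acted on nontrivially by `b` with `b ^ 3 = 1`, there are `x`, `y = b x b⁻¹` with
`x² = y² = z`, `y x = z x y` and `b y b⁻¹ ∈ {x y, z x y}`.
-/

set_option autoImplicit false

namespace Cfsg.Agent.Lib.Helper45.S4415

universe u

section
variable {G : Type u} [Group G]

/-- conjugation by `b` -/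
def xf (b u : G) : G := b * u * b⁻¹

/-- `u⁻¹ * (b u b⁻¹)` -/
def xd (b u : G) : G := u⁻¹ * xf b u

theorem xf_mul (b u v : G) : xf b (u * v) = xf b u * xf b v := by unfold xf; group

theorem xf_inv (b u : G) : xf b u⁻¹ = (xf b u)⁻¹ := by unfold xf; group

theorem xf_one (b : G) : xf b 1 = 1 := by unfold xf; group

theorem xd_mul (b u v : G) : xd b (u * v) = v⁻¹ * xd b u * v * xd b v := by
  unfold xd xf; group

theorem xf_xd (b u : G) : xf b (xd b u) = (xf b u)⁻¹ * xf b (xf b u) := by
  unfold xd xf; group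

theorem xf_three {b : G} (hb3 : b ^ 3 = 1) (v : G) : xf b (xf b (xf b v)) = v := by
  have hb : b * b * b = 1 := by rw [← hb3, pow_succ, pow_two]
  have h : xf b (xf b (xf b v)) = (b * b * b) * v * (b * b * b)⁻¹ := by unfold xf; group
  rw [h, hb, one_mul, inv_one, mul_one]

theorem xf_central {z : G} (hzc : ∀ g : G, z * g = g * z) (b : G) : xf b z = z := by
  unfold xf
  rw [← hzc b, mul_inv_cancel_right]

theorem xf_z_mul {z : G} (hzc : ∀ g : G, z * g = g * z) (b v : G) :
    xf b (z * v) = z * xf b v := by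
  rw [xf_mul, xf_central hzc]

theorem xq8_comm_of_sq {a c : G} (h1 : a * a = 1) (h2 : c * c = 1)
    (h3 : (a * c) * (a * c) = 1) : a * c = c * a := by
  calc a * c = a * ((a * c) * (a * c)) * c := by rw [h3, mul_one]
    _ = (a * a) * (c * a) * (c * c) := by group
    _ = c * a := by rw [h1, h2, one_mul, mul_one]

theorem xq8_central_sq {z : G} (hzc : ∀ g : G, z * g = g * z) (hzz : z * z = 1) (A : G) :
    (z * A) * (z * A) = A * A := by
  calc (z * A) * (z * A) = z * (A * z) * A := by group
    _ = z * (z * A) * A := by rw [hzc A]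
    _ = (z * z) * (A * A) := by group
    _ = A * A := by rw [hzz, one_mul]

/-- `b v b⁻¹ = z v` is impossible when `b ^ 3 = 1` and `z ≠ 1` is a central involution. -/
theorem xq8_no_z {z b : G} (hz1 : z ≠ 1) (hzz : z * z = 1) (hzc : ∀ g : G, z * g = g * z)
    (hb3 : b ^ 3 = 1) (v : G) : xf b v ≠ z * v := by
  intro hv
  have h2 : xf b (xf b v) = v := by
    rw [hv, xf_z_mul hzc, hv, ← mul_assoc, hzz, one_mul]
  have h3 : xf b (xf b (xf b v)) = z * v := by rw [h2, hv]
  rw [xf_three hb3] at h3
  apply hz1
  calc z = z * v * v⁻¹ := by group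
    _ = v * v⁻¹ := by rw [← h3]
    _ = 1 := mul_inv_cancel v

end

/-- **[X-Q8]** -/
theorem pkgXQ8 : Cfsg.Agent.Lib.Helper65.S4415.PkgXQ8.{u} := by
  intro G _ _ N z b hzN hz1 hzz hzc hsq hcomm hcen hb3 hbN hmove
  have hfN : ∀ u ∈ N, xf b u ∈ N := hbN
  have hdN : ∀ u ∈ N, xd b u ∈ N := fun u hu => N.mul_mem (N.inv_mem hu) (hbN u hu)
  have hex : ∃ u ∈ N, xd b u * xd b u ≠ 1 := by
    by_contra hcon
    push Not at hcon
    -- Step 1: the elements `d u` commute with each other
    have hS1 : ∀ u ∈ N, ∀ v ∈ N, xd b u * xd b v = xd b v * xd b u := by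
      intro u hu v hv
      apply xq8_comm_of_sq (hcon u hu) (hcon v hv)
      have huv := hcon (u * v) (N.mul_mem hu hv)
      rw [xd_mul] at huv
      rcases hcomm _ (hdN u hu) v hv with h | h
      · have h' : v⁻¹ * xd b u * v = xd b u := by
          rw [mul_assoc, h, inv_mul_cancel_left]
        rw [h'] at huv
        exact huv
      · have h' : v⁻¹ * xd b u * v = z * xd b u := by
          calc v⁻¹ * xd b u * v = v⁻¹ * (xd b u * v) := by group
            _ = v⁻¹ * (z * v * xd b u) := by rw [h]
            _ = (v⁻¹ * z) * v * xd b u := by group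
            _ = (z * v⁻¹) * v * xd b u := by rw [hzc v⁻¹]
            _ = z * xd b u := by group
        rw [h', mul_assoc z, xq8_central_sq hzc hzz] at huv
        exact huv
    -- Step 2: fixed points commute with all `d u`
    have hS2 : ∀ w ∈ N, xf b w = w → ∀ u ∈ N, w * xd b u = xd b u * w := by
      intro w hw hfw u hu
      obtain ⟨k, hk⟩ : ∃ k, k = w * u * w⁻¹ * u⁻¹ := ⟨_, rfl⟩
      have hkf : xf b k = k := by
        rcases hcomm w hw u hu with h | h
        · have hk1 : k = 1 := by rw [hk, h]; group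
          rw [hk1, xf_one]
        · have hk1 : k = z := by rw [hk, h]; group
          rw [hk1, xf_central hzc]
      have h1 : w * u * w⁻¹ = k * u := by rw [hk]; group
      have h2 : w * xf b u * w⁻¹ = k * xf b u := by
        have h4 : xf b k = w * xf b u * w⁻¹ * (xf b u)⁻¹ := by
          rw [hk, xf_mul, xf_mul, xf_mul, xf_inv, xf_inv, hfw]
        rw [hkf] at h4
        rw [h4]; group
      have h3 : w * xd b u * w⁻¹ = xd b u := by
        calc w * xd b u * w⁻¹ = (w * u * w⁻¹)⁻¹ * (w * xf b u * w⁻¹) := by unfold xd; group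
          _ = (k * u)⁻¹ * (k * xf b u) := by rw [h1, h2]
          _ = xd b u := by unfold xd; group
      calc w * xd b u = (w * xd b u * w⁻¹) * w := by group
        _ = xd b u * w := by rw [h3]
    -- Step 3: `u * f u * f (f u)` is fixed
    have hS3 : ∀ u ∈ N, xf b (u * xf b u * xf b (xf b u)) = u * xf b u * xf b (xf b u) := by
      intro u hu
      obtain ⟨t, ht⟩ : ∃ t, t = u * xf b u * xf b (xf b u) := ⟨_, rfl⟩
      rw [← ht]
      have htN : t ∈ N := by
        rw [ht]; exact N.mul_mem (N.mul_mem hu (hfN u hu)) (hfN _ (hfN u hu))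
      have hft : xf b t = u⁻¹ * t * u := by
        rw [ht, xf_mul, xf_mul, xf_three hb3]; group
      rcases hcomm t htN u hu with h | h
      · rw [hft, mul_assoc, h, inv_mul_cancel_left]
      · exfalso
        apply xq8_no_z hz1 hzz hzc hb3 t
        rw [hft]
        calc u⁻¹ * t * u = u⁻¹ * (t * u) := by group
          _ = u⁻¹ * (z * u * t) := by rw [h]
          _ = (u⁻¹ * z) * u * t := by group
          _ = (z * u⁻¹) * u * t := by rw [hzc u⁻¹]
          _ = z * t := by group
    -- Step 4: every `d v` is central in `N`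
    have hS4 : ∀ v ∈ N, ∀ u ∈ N, xd b v * u = u * xd b v := by
      intro v hv u hu
      obtain ⟨t, ht⟩ : ∃ t, t = u * xf b u * xf b (xf b u) := ⟨_, rfl⟩
      have htN : t ∈ N := by
        rw [ht]; exact N.mul_mem (N.mul_mem hu (hfN u hu)) (hfN _ (hfN u hu))
      have hft : xf b t = t := by rw [ht]; exact hS3 u hu
      have hc1 : Commute (xd b v) t := (hS2 t htN hft v hv).symm
      have hc2 : Commute (xd b v) (xd b (xf b u)) := hS1 v hv _ (hfN u hu)
      have hc3 : Commute (xd b v) z := (hzc _).symm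
      have hm : Commute (xd b v) (xf b u * xf b (xf b u)) := by
        rcases hsq _ (hfN u hu) with h | h
        · have h5 : xf b u * xf b (xf b u) = xd b (xf b u) := by
            have hinv : (xf b u)⁻¹ = xf b u := inv_eq_of_mul_eq_one_left h
            unfold xd
            rw [hinv]
          rw [h5]; exact hc2
        · have h5 : xf b u * xf b (xf b u) = z * xd b (xf b u) := by
            have hinv : xf b u = z * (xf b u)⁻¹ := by
              rw [← h]; group
            calc xf b u * xf b (xf b u) = (z * (xf b u)⁻¹) * xf b (xf b u) := by rw [← hinv]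
              _ = z * xd b (xf b u) := by unfold xd; group
          rw [h5]; exact hc3.mul_right hc2
      have hu' : u = t * (xf b u * xf b (xf b u))⁻¹ := by rw [ht]; group
      have h6 : Commute (xd b v) (t * (xf b u * xf b (xf b u))⁻¹) := hc1.mul_right hm.inv_right
      rw [← hu'] at h6
      exact h6
    obtain ⟨x0, hx0N, hx0⟩ := hmove
    apply hx0
    have hd : xd b x0 = 1 ∨ xd b x0 = z :=
      hcen _ (hdN x0 hx0N) (fun y hy => hS4 x0 hx0N y hy)
    have h7 : xf b x0 = x0 * xd b x0 := by unfold xd; group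
    rcases hd with h | h
    · have h8 : xf b x0 = x0 := by rw [h7, h, mul_one]
      calc b * x0 = xf b x0 * b := by unfold xf; group
        _ = x0 * b := by rw [h8]
    · exfalso
      apply xq8_no_z hz1 hzz hzc hb3 x0
      rw [h7, h, hzc x0]
  obtain ⟨u, huN, hu⟩ := hex
  obtain ⟨x, hx⟩ : ∃ x, x = xd b u := ⟨_, rfl⟩
  rw [← hx] at hu
  have hxN : x ∈ N := by rw [hx]; exact hdN u huN
  have hxx : x * x = z := (hsq x hxN).resolve_left hu
  have hyN : xf b x ∈ N := hfN x hxN
  have hyy : xf b x * xf b x = z := by rw [← xf_mul, hxx, xf_central hzc]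
  have hprod : x * xf b x * xf b (xf b x) = 1 := by
    have h1 : xf b x = (xf b u)⁻¹ * xf b (xf b u) := by rw [hx, xf_xd]
    have h2 : xf b (xf b x) = (xf b (xf b u))⁻¹ * u := by
      rw [h1, xf_mul, xf_inv, xf_three hb3]
    rw [h2, h1, hx]; unfold xd; group
  have hfy : xf b (xf b x) = (x * xf b x)⁻¹ := eq_inv_of_mul_eq_one_right hprod
  have hnc : x * xf b x ≠ xf b x * x := by
    intro hc
    have h1 : (x * xf b x) * (x * xf b x) = 1 := by
      calc (x * xf b x) * (x * xf b x) = x * (xf b x * x) * xf b x := by group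
        _ = x * (x * xf b x) * xf b x := by rw [← hc]
        _ = (x * x) * (xf b x * xf b x) := by group
        _ = 1 := by rw [hxx, hyy, hzz]
    have h2 : xf b (xf b x) * xf b (xf b x) = z := by rw [← xf_mul, hyy, xf_central hzc]
    rw [hfy] at h2
    have h3 : (x * xf b x)⁻¹ = x * xf b x := inv_eq_of_mul_eq_one_left h1
    rw [h3, h1] at h2
    exact hz1 h2.symm
  refine ⟨x, hxN, xf b x, hyN, hxx, hyy, ?_, rfl, ?_⟩
  · rcases hcomm x hxN _ hyN with h | h
    · exact absurd h hnc
    · calc xf b x * x = (z * z) * (xf b x * x) := by rw [hzz, one_mul]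
        _ = z * (z * xf b x * x) := by group
        _ = z * (x * xf b x) := by rw [← h]
        _ = z * x * xf b x := by group
  · show xf b (xf b x) = x * xf b x ∨ xf b (xf b x) = z * x * xf b x
    rw [hfy]
    rcases hsq _ (N.mul_mem hxN hyN) with h | h
    · left; exact inv_eq_of_mul_eq_one_left h
    · right
      apply inv_eq_of_mul_eq_one_left
      calc z * x * xf b x * (x * xf b x) = z * ((x * xf b x) * (x * xf b x)) := by group
        _ = 1 := by rw [h, hzz]

end Cfsg.Agent.Lib.Helper45.S4415
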